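import Cfsg.Agent.C6.DK

/-! Normalisers of symplectic type `2`-groups: the two-dimensional case. -/

set_option autoImplicit false
set_option linter.unusedSectionVars false
set_option linter.unusedVariables false
set_option linter.unusedSimpArgs false

namespace Cfsg.Agent.C6

open Module Cfsg.Agent.H27

universe u v

variable {F : Type u} {V : Type v} [Field F] [AddCommGroup V] [Module F V]
variable [Finite F] [FiniteDimensional F V] {σ : F →+* F} {B : V →ₛₗ[σ] V →ₗ[F] F}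
variable {R L M : Subgroup (GV F V)} {a b c d g h j k r s t u w x y z : GV F V}

theorem PF.cube {x : F} (h : PF x) (h3 : (3 : F) = 0) : x = 0 ∨ x = 1 ∨ x = -1 := by
  obtain ⟨n, rfl⟩ := h
  induction n with
  | zero => simp
  | succ n ih =>
    rw [Nat.cast_succ]
    rcases ih with e | e | e <;> rw [e]
    exacts [Or.inr (Or.inl (zero_add _)), Or.inr (Or.inr (by linear_combination h3)),
      Or.inl (by simp)]

theorem line_of_one {W : Submodule F V} (h : finrank F W = 1) {e p : V} (he : e ∈ W) (h0 : e ≠ 0)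
    (hp : p ∈ W) : ∃ c : F, p = c • e := by
  obtain ⟨c, hc⟩ := (finrank_eq_one_iff_of_nonzero' (⟨e, he⟩ : W)
    fun e => h0 (congrArg Subtype.val e)).1 h ⟨p, hp⟩
  exact ⟨c, (congrArg Subtype.val hc).symm⟩

theorem Pa.nrm_of_nn (P : Pa R) (hI : HasI R) (h : ∀ x, NN R x → g * x * g⁻¹ ∈ RS R) :
    g ∈ Nrm R := mem_Nrm fun x hx => by
  by_cases hx' : x ∈ Sc F V
  · rw [Sc_conj hx']; exact le_RS hx
  obtain ⟨s, hs, s1, s2⟩ := P.exists_rep hI (le_RS hx) (Or.inr rfl)
  have := h _ ⟨s1, s2, by rwa [(Sc F V).mul_mem_cancel_left hs]⟩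
  rwa [← mul_assoc, ← Sc_comm hs, mul_assoc, mul_assoc,
    (RS R).mul_mem_cancel_left (Sc_le_RS hs), ← mul_assoc] at this

theorem Pa.iv_of_nn (P : Pa R) (hj : j ∈ R) (h1 : j ∈ Sc F V) (h2 : j * j = -1) (ha : NN R a) :
    Iv R (j * a) :=
  ⟨le_RS (R.mul_mem hj ha.1), by rw [P.sq_mul_comm (ip_sc_left h1 a), h2, ha.2.1]; simp,
    by rw [(Sc F V).mul_mem_cancel_left h1]; exact ha.2.2⟩

theorem Pa.nn_of_iv (P : Pa R) (hj : j ∈ R) (h1 : j ∈ Sc F V) (h2 : j * j = -1) (hw : w ∈ R)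
    (I : Iv R w) : NN R (j * w) :=
  ⟨R.mul_mem hj hw, by rw [P.sq_mul_comm (ip_sc_left h1 w), h2, I.sq]; simp,
    by rw [(Sc F V).mul_mem_cancel_left h1]; exact I.ns⟩

theorem Pa.exists_anti_nn (P : Pa R) (hI : HasI R) (ha : a ∉ Sc F V) :
    ∃ c, NN R c ∧ ip c a = 1 := by
  obtain ⟨c, hc, c2⟩ := P.exists_anti ha
  obtain ⟨s, hs, s1, s2⟩ := P.exists_rep hI (le_RS hc) (Or.inr rfl)
  have c3 := (ip_smul_left hs c a).trans c2
  exact ⟨s * c, ⟨s1, s2, not_Sc_of_ip c3⟩, c3⟩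

theorem base_three (P : Pa R) (U : UT B R M) (hn : finrank F V = 2) (h3 : (3 : F) = 0)
    (I : Iv R w) (hw : w ∈ R) (hc : NN R c) (h1 : ip c w = 1) (hy : Isom B y) (y2 : y * y = -1) :
    y ∈ RS R := by
  have S := U.uh.toSkH
  have d1 : finrank F (Vp w) = 1 := by have := P.finrank_Vp I; omega
  have d2 : finrank F (Vp (-w)) = 1 := by have := P.finrank_Vp I.neg; omega
  obtain ⟨e, he, e0⟩ := Vp_ne P.two I.sq I.ns
  have hf := Vp_anti (P.anti hc.RS I.mem h1) he
  have dec : ∀ v, ∃ α β : F, v = α • e + β • c.1 e := fun v => by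
    obtain ⟨p, hp, q, hq, rfl⟩ := Vp_dec P.two I.sq v
    obtain ⟨α, rfl⟩ := line_of_one d1 he e0 hp
    obtain ⟨β, rfl⟩ := line_of_one d2 hf (ap_ne c e0) hq
    exact ⟨α, β, rfl⟩
  have ef := (U.iso w hw).orth P.two he hf
  have fe := S.zero_symm ef
  have ff := U.iso c hc.1 e e
  have N0 : B e e ≠ 0 := fun h => e0 (U.nd e fun v => by
    obtain ⟨α, β, rfl⟩ := dec v
    simp [h, ef])
  have we := mem_Vp.1 he
  have wf := mem_Vp_neg.1 hf
  have cf := sq_ap hc.2.1 e
  have ext : ∀ (μ : F) (r : GV F V), μ ≠ 0 → r ∈ R → y.1 e = μ • r.1 e →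
      y.1 (c.1 e) = μ • r.1 (c.1 e) → y ∈ RS R := fun μ r h0 hr e1 e2 =>
    mem_RS.2 ⟨_, sc_mem μ h0, r, hr, GV_ext fun v => by
      obtain ⟨α, β, rfl⟩ := dec v
      rw [mul_ap, sc_ap, map_add, map_add, map_smul, map_smul, map_smul, map_smul, e1, e2]
      module⟩
  have adj : ∀ p q, B (y.1 p) q = -B p (y.1 q) := fun p q => by
    rw [hy.adj, inv_of_sq y2, neg_ap, map_neg]
  obtain ⟨α, β, e1⟩ := dec (y.1 e)
  obtain ⟨γ, δ, e2⟩ := dec (y.1 (c.1 e))
  have y1 := sq_ap y2 e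
  have y3 := sq_ap y2 (c.1 e)
  have k1 : (c * w).1 e = c.1 e := by rw [mul_ap, we]
  have k2 : (c * w).1 (c.1 e) = e := by rw [mul_ap, wf, map_neg, cf, neg_neg]
  generalize k3 : c.1 e = f at hf dec ef fe ff wf cf ext e1 e2 y3 k1 k2
  have a1 := adj e e
  have a2 := adj e f
  have b1 := congrArg (B e) y1
  have b2 := congrArg (B f) y1
  have b3 := congrArg (B f) y3
  simp only [e1, e2, map_add, map_smul, map_neg, LinearMap.map_smulₛₗ, LinearMap.add_apply,
    LinearMap.smul_apply, smul_eq_mul, ef, fe, ff, RingHom.id_apply] at a1 a2 b1 b2 b3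
  replace a1 : σ α = -α := mul_right_cancel₀ N0 (by linear_combination a1)
  replace a2 : γ = -σ β := mul_right_cancel₀ N0 (by linear_combination a2)
  replace b1 : α * α + β * γ = -1 := mul_right_cancel₀ N0 (by linear_combination b1)
  replace b2 : β * (α + δ) = 0 := mul_right_cancel₀ N0 (by linear_combination b2)
  replace b3 : γ * β + δ * δ = -1 := mul_right_cancel₀ N0 (by linear_combination b3)
  by_cases hβ : β = 0
  · have h4 : α ≠ 0 := by rintro rfl; simp [hβ] at b1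
    have h5 : γ = 0 := by simp [a2, hβ]
    rcases mul_self_eq_mul_self_iff.1 (show δ * δ = α * α by linear_combination b3 - b1)
      with h6 | h6
    · exact ext α 1 h4 R.one_mem (by simp [e1, hβ]) (by simp [e2, h5, h6])
    · exact ext α w h4 hw (by simp [e1, hβ, we]) (by simp [e2, h5, h6, wf])
  have h4 : δ = -α := by linear_combination (mul_eq_zero.1 b2).resolve_left hβ
  have h5 := (U.uf.pf (β * σ β) (by rw [map_mul, S.inv, mul_comm])).cube h3
  have h6 : α = 0 := by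
    rcases h5 with h5 | h5 | h5
    · exact absurd h5 (mul_ne_zero hβ ((map_ne_zero σ).2 hβ))
    · exact mul_self_eq_zero.1 (by linear_combination b1 - β * a2 + h5)
    · rcases mul_self_eq_one_iff.1 (show α * α = 1 by linear_combination b1 - β * a2 + h5 - h3)
        with rfl | rfl
      · exact absurd (by simpa using a1) (P.two ∘ fun h : (1 : F) = -1 => by linear_combination h)
      · exact absurd (by simpa using a1) (P.two ∘ fun h : (-1 : F) = 1 => by linear_combination -h)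
  have h7 : β * σ β = 1 := by rw [h6] at b1; linear_combination -b1 + β * a2
  have h8 : ∀ t : F, t = 1 ∨ t = -1 → β + σ β = t → σ β = β := fun t ht e => by
    have : β = -t := eq_neg_of_add_eq_zero_left (mul_self_eq_zero.1 (by
      rcases ht with rfl | rfl
      · linear_combination β * e - h7 + β * h3
      · linear_combination β * e - h7 - β * h3))
    rcases ht with rfl | rfl <;> simp [this]
  have h9 : σ β = β ∨ σ β = -β := by
    rcases (U.uf.pf (β + σ β) (by rw [map_add, S.inv, add_comm])).cube h3 with h | h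
    · exact Or.inr (by linear_combination h)
    · exact Or.inl (h.elim (h8 1 (Or.inl rfl)) (h8 (-1) (Or.inr rfl)))
  rcases h9 with h9 | h9
  · exact ext β _ hβ hc.1 (by rw [k3, e1, h6, zero_smul, zero_add])
      (by rw [cf, e2, a2, h9, h4, h6]; simp)
  · exact ext β _ hβ (R.mul_mem hc.1 hw) (by rw [k1, e1, h6, zero_smul, zero_add])
      (by rw [k2, e2, a2, h9, h4, h6]; simp)

theorem CM.base2 (P : CM R M) (hI : HasI R) (hO : OddM R M) (hT : Ty σ R M)
    (hn : finrank F V = 2) : M ≤ Nrm R ∨ (Big M ∧ (3 : F) ≠ 0) := by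
  obtain ⟨a, ha, -, -⟩ := P.exists_NN' (l := []) (by simp) (by simp [hn])
  obtain ⟨c, hc, e⟩ := P.exists_anti_nn hI ha.2.2
  by_cases h3 : (3 : F) = 0
  · obtain ⟨B, U⟩ := hT.resolve_left fun h => h.1 h3
    obtain ⟨j, hj, j1, j2⟩ := id hI
    exact Or.inl fun g hg => P.nrm_of_nn hI fun x hx => base_three P.toPa U hn h3
      (P.iv_of_nn hj j1 j2 ha) (R.mul_mem hj ha.1) hc ((ip_smul_right j1 _ _).trans e)
      (U.si.conj hg (U.iso x hx.1)) (conj_sq_neg hx.2.1 g)
  have sq : ∀ x : GV F V, x * x = -1 → T x ^ 2 = C6.sc V 2 P.two * x := fun x hx => by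
    rw [pow_two, T_sq P.two hx]
  have q4 : ∀ x : GV F V, x * x = -1 → T x ^ 4 ∈ Sc F V := fun x hx => by
    rw [show 4 = 2 * 2 from rfl, pow_mul, sq x hx, pow_two,
      P.sq_mul_comm (ip_sc_left (sc_mem _ _) x), hx]
    exact (Sc F V).mul_mem ((Sc F V).mul_mem (sc_mem _ _) (sc_mem _ _)) neg_one_mem_Sc
  have q2 : ∀ x, NN R x → T x ^ 2 ∉ Sc F V := fun x hx => by
    rw [sq x hx.2.1, (Sc F V).mul_mem_cancel_left (sc_mem _ _)]; exact hx.2.2
  have q1 : ∀ x, NN R x → T x ^ 2 ∈ RS R := fun x hx => by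
    rw [sq x hx.2.1]; exact (RS R).mul_mem (Sc_le_RS (sc_mem _ _)) hx.RS
  have st : T c * T a * (T a * T c)⁻¹ ∉ Sc F V := fun h => by
    have h1 : T c * T a * (T c)⁻¹ = T c * T a * (T a * T c)⁻¹ * T a := by group
    have h2 := congrArg (· ^ 2) h1
    simp only [conj_pow] at h2
    rw [Commute.mul_pow (Sc_comm h _), sq a ha.2.1, ← mul_assoc (T c), ← Sc_comm (sc_mem _ _),
      mul_assoc, mul_assoc, ← mul_assoc (T c), P.T_conj_one hc.RS hc.2.1 ha.RS e, ← mul_assoc,
      ← mul_assoc, mul_left_inj] at h2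
    refine hc.2.2 ?_
    rw [← (Sc F V).mul_mem_cancel_left (sc_mem 2 P.two), h2]
    exact (Sc F V).mul_mem ((Sc F V).pow_mem h 2) (sc_mem _ _)
  rcases dk hn (hO c hc) (hO a ha) (q4 c hc.2.1) (q2 c hc) (q4 a ha.2.1) (q2 a ha) st
    with h | ⟨-, h⟩
  · exact Or.inr ⟨h, h3⟩
  · refine Or.inl fun g hg => P.nrm_of_nn hI fun x hx => ?_
    have h1 := conj_sq_neg hx.2.1 g
    have := h (T (g * x * g⁻¹)) (by
      rw [← T_conj P.two hx.2.1]; exact M.mul_mem (M.mul_mem hg (hO x hx)) (M.inv_mem hg))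
      (q4 _ h1)
    rw [← (RS R).mul_mem_cancel_left (Sc_le_RS (sc_mem 2 P.two)), ← sq _ h1]
    rcases this with h | h | h | h
    · exact Sc_le_RS h
    · simpa using (RS R).mul_mem (Sc_le_RS h) (q1 c hc)
    · simpa using (RS R).mul_mem (Sc_le_RS h) (q1 a ha)
    · simpa only [inv_mul_cancel_right] using
        (RS R).mul_mem (Sc_le_RS h) ((RS R).mul_mem (q1 c hc) (q1 a ha))

end Cfsg.Agent.C6
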