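import Cfsg.Agent.C6.TvU
import Cfsg.Agent.C6.Base2

/-! Normalisers of symplectic type `2`-groups: transvections in normal subgroups. -/

set_option autoImplicit false
set_option linter.unusedSectionVars false
set_option linter.unusedVariables false
set_option linter.unusedSimpArgs false

namespace Cfsg.Agent.C6

open Module Cfsg.Agent.H27

universe u v

section

variable {G : Type*} [Group G] {K L : Subgroup G} (hK : ∀ h ∈ L, ∀ k ∈ K, h * k * h⁻¹ ∈ K)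
  {a b c d y : G}
include hK

theorem cong_mul (ha : a ∈ L) (h1 : a * b⁻¹ ∈ K) (h2 : c * d⁻¹ ∈ K) : a * c * (b * d)⁻¹ ∈ K := by
  simpa [mul_assoc] using K.mul_mem (hK a ha _ h2) h1

theorem cong_conj (hb : b ∈ L) (hy : y ∈ K) : y * b * y⁻¹ * b⁻¹ ∈ K := by
  simpa [mul_assoc] using K.mul_mem hy (hK b hb _ (K.inv_mem hy))

theorem braid_aux (hL : K ≤ L) (ha : a ∈ L) (hb : b ∈ L) (hy : y ∈ K) (hc : a * b = b * a)
    (e : a * (y * b * y⁻¹) * a = y * b * y⁻¹ * a * (y * b * y⁻¹)) : a * b⁻¹ ∈ K := by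
  have h1 := cong_conj hK hb hy
  have h2 : y * b * y⁻¹ ∈ L := L.mul_mem (L.mul_mem (hL hy) hb) (L.inv_mem (hL hy))
  have h0 : a * a⁻¹ ∈ K := by simp
  have h3 := cong_mul hK (L.mul_mem ha h2) (cong_mul hK ha h0 h1) h0
  have h4 := cong_mul hK (L.mul_mem h2 ha) (cong_mul hK h2 h1 h0) h1
  rw [e] at h3
  have := K.mul_mem (K.inv_mem h3) h4
  rwa [show ∀ x y z : G, (x * y⁻¹)⁻¹ * (x * z⁻¹) = y * z⁻¹ by intros; group, ← hc,
    show a * b * a * (a * b * b)⁻¹ = a * (b * a) * b⁻¹ * b⁻¹ * a⁻¹ by group, ← hc,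
    show a * (a * b) * b⁻¹ * b⁻¹ * a⁻¹ = a * (a * b⁻¹ * a⁻¹) by group,
    (Commute.inv_right hc).eq, mul_inv_cancel_right] at this

end

variable {F : Type u} {V : Type v} [Field F] [AddCommGroup V] [Module F V]
variable [Finite F] [FiniteDimensional F V] {σ : F →+* F} {B : V →ₛₗ[σ] V →ₗ[F] F}
variable {R K L M : Subgroup (GV F V)} {a b c d g h j k r s t u w x y z : GV F V}

theorem exists_iso (S : UH B) (l : List (Dual F V)) (hn : l.length + 1 < finrank F V) :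
    ∃ z, z ≠ 0 ∧ B z z = 0 ∧ ∀ φ ∈ l, φ z = 0 := by
  obtain ⟨x, -, h1, h2⟩ := exists_ker_list l (W := ⊤) (S := ⊥) (by simp; omega)
  by_cases hx : B x x = 0
  · exact ⟨x, by simpa using h2, hx, h1⟩
  obtain ⟨y, -, h3, h4⟩ := exists_ker_list (B x :: l) (W := ⊤) (S := ⊥) (by simp; omega)
  have h5 : ∀ φ ∈ l, φ y = 0 := fun φ h => h3 φ (List.mem_cons_of_mem _ h)
  have h6 : B x y = 0 := h3 _ List.mem_cons_self
  by_cases hy : B y y = 0
  · exact ⟨y, by simpa using h4, hy, h5⟩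
  obtain ⟨c, hc⟩ := S.exists_scale hy (μ := -B x x) (by rw [map_neg, S.norm_skew])
  refine ⟨x + c • y, fun e => hx (by simpa [h6] using congrArg (B x) e), ?_, fun φ h => by
    simp [h1 φ h, h5 φ h]⟩
  rw [map_add, map_add, LinearMap.add_apply, LinearMap.add_apply, hc]
  simp [h6, S.zero_symm h6]

theorem tv_conj (hg : Isom B g) {v : V} (e : ∀ q, t.1 q = q + B v q • v) (q : V) :
    (g * t * g⁻¹).1 q = q + B (g.1 v) q • g.1 v := by
  rw [mul_ap, mul_ap, e, map_add, map_smul, val_apply_inv, hg.adj]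

theorem CM.big_normal (P : CM R L) (hI : HasI R) (hT : Ty σ R L) (hL : K ≤ L)
    (hK : ∀ h ∈ L, ∀ k ∈ K, h * k * h⁻¹ ∈ K) (h1 : ∀ a, NN R a → a ∈ K) (hB : Big L)
    (hn : 4 ≤ finrank F V ∨ (3 : F) ≠ 0) : Big K := by
  obtain ⟨v, φ, b1, b2, b3, b4⟩ := id hB
  obtain ⟨y, y1, y2, y3, y4⟩ := P.exists_iv hI b1 b2 b3 (Or.inr rfl)
  have hy := h1 y ⟨y1, y2, y3⟩
  by_cases h3 : (3 : F) = 0
  · obtain ⟨B, U⟩ := hT.resolve_left fun h => h.1 h3
    replace hn := hn.resolve_right (not_not.2 h3)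
    have S := U.uh.toSkH
    have hG := P.tvu hI (by nlinarith) U hB
    obtain ⟨vv, c, hc, -, rfl⟩ := tv_iso S U.si b1 b2 b3 b4
    replace y4 : B v (y.1 v) ≠ 0 := by simpa [hc] using y4
    have lift : ∀ {f : V → V}, (∃ g ∈ GG B, ∀ x, g x = f x) →
        ∃ g ∈ L, Isom B g ∧ ∀ x, g.1 x = f x := by
      rintro f ⟨g, hg, e⟩
      obtain ⟨g, rfl⟩ := (toE F V).surjective g
      exact ⟨g, mem_ME.1 (hG hg), hg.1, e⟩
    obtain ⟨z, z0, zz, z1⟩ := exists_iso U.uh [B v, B (y.1 v)] (by simp; omega)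
    have z2 : B v z = 0 := z1 _ (by simp)
    have z3 : B (y.1 v) z = 0 := z1 _ (by simp)
    obtain ⟨g0, hg0, -, e0⟩ := lift (S.exists_tvS vv (map_one σ))
    simp only [one_smul] at e0
    have e1 := tv_conj (U.iso y y1) e0
    have k0 := cong_conj hK hg0 hy
    have hg1 : y * g0 * y⁻¹ ∈ L := L.mul_mem (L.mul_mem (hL hy) hg0) (L.inv_mem (hL hy))
    have uu := (U.iso y y1 v v).trans vv
    generalize y * g0 * y⁻¹ = g1 at e1 k0 hg1
    generalize y.1 v = u at *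
    have key : ∀ z, B z z = 0 → B v z = 0 → B u z = 0 → ∃ t ∈ L, t * g1⁻¹ ∈ K ∧
        ∀ q, t.1 q = q + B (u + z) q • (u + z) := fun z zz z2 z3 => by
      obtain ⟨E, hE, i, e⟩ := lift (S.exists_E (u := v) (v := (B v u)⁻¹ • z) (t := 0) vv
        (by simp [z2]) (by simp [zz]))
      have e2 : E.1 v = v := by simp [e, vv, S.zero_symm z2]
      have e3 : E.1 u = u + z := by simp [e, S.zero_symm z3, smul_smul, y4]
      have e4 : E * g0 * E⁻¹ = g0 := GV_ext fun q => by rw [tv_conj i e0, e2, e0]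
      refine ⟨E * g1 * E⁻¹, L.mul_mem (L.mul_mem hE hg1) (L.inv_mem hE), ?_, fun q => by
        rw [tv_conj i e1, e3]⟩
      have := K.mul_mem (hK E hE _ k0) (K.inv_mem k0)
      rwa [show E * (g1 * g0⁻¹) * E⁻¹ = E * g1 * E⁻¹ * (E * g0 * E⁻¹)⁻¹ by group, e4,
        show ∀ x : GV F V, x * g0⁻¹ * (g1 * g0⁻¹)⁻¹ = x * g1⁻¹ by intros; group] at this
    obtain ⟨t, ht, k1, e2⟩ := key z zz z2 z3
    obtain ⟨t', ht', k2, e3⟩ := key (-z) (by simp [zz]) (by simp [z2]) (by simp [z3])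
    obtain ⟨g2, -, -, e4⟩ := lift (S.exists_tvS zz (map_ofNat σ 2))
    have e5 : t * t' = g2 * (g1 * g1) := GV_ext fun q => by
      simp only [mul_ap, e1, e2, e3, e4, map_add, map_neg, map_smul, LinearMap.add_apply,
        LinearMap.neg_apply, LinearMap.smul_apply, uu, zz, z3, S.zero_symm z3, smul_eq_mul]
      module
    have := cong_mul hK ht k1 k2
    rw [e5, mul_inv_cancel_right] at this
    exact ⟨z, (2 : F) • B z, z0, smul_ne_zero P.two (nd_ne U.nd z0), by simp [zz],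
      t1_ME.2 ⟨g2, this, e4⟩⟩
  have pf : PF (φ (y.1 v)) := by
    rcases hT with h | ⟨B, U⟩
    · exact h.2 _
    obtain ⟨-, c, -, hc, rfl⟩ := tv_iso U.uh.toSkH U.si b1 b2 b3 b4
    refine U.uf.pf _ ?_
    have := U.skew v (y.1 v)
    rw [(U.iso y y1).adj, inv_of_sq y2, neg_ap, map_neg, neg_inj] at this
    rw [LinearMap.smul_apply, smul_eq_mul, map_mul, hc, ← this]
  have p2 : PF (2 : F) := ⟨2, by simp⟩
  obtain ⟨ga, ha, ea⟩ := t1_ME.1 (t1_nat b4 b3 (p2.mul pf.inv))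
  obtain ⟨gb, hb, eb⟩ := t1_ME.1 (t1_nat b4 b3 (p2.inv.mul pf.inv))
  have h2 := P.two
  have ec : ∀ x, (y * gb * y⁻¹).1 x = x - (2⁻¹ * (φ (y.1 v))⁻¹ * φ (y.1 x)) • y.1 v := fun x => by
    rw [mul_ap, mul_ap, eb, map_add, val_apply_inv, inv_of_sq y2, neg_ap]
    simp [sub_eq_add_neg]
  have := braid_aux hK hL ha hb hy (GV_ext fun x => by
    simp only [mul_ap, ea, eb, map_add, map_smul, LinearMap.smul_apply, b3, smul_eq_mul]
    module) (GV_ext fun x => by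
      generalize y * gb * y⁻¹ = gc at ec
      simp only [mul_ap, ea, ec, map_add, map_sub, map_smul, LinearMap.smul_apply, b3, smul_eq_mul,
        sq_ap y2, map_neg]
      match_scalars <;> field_simp <;> ring)
  refine ⟨v, (3 * 2⁻¹ * (φ (y.1 v))⁻¹) • φ, b1, smul_ne_zero (by simp [h3, h2, y4]) b2,
    by simp [b3], t1_ME.2 ⟨_, this, fun x => ?_⟩⟩
  rw [mul_ap, inv_ap (v := x - (2⁻¹ * (φ (y.1 v))⁻¹ * φ x) • v) (by simp [eb, b3]), ea]
  simp only [map_sub, map_smul, LinearMap.smul_apply, b3, smul_eq_mul]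
  match_scalars <;> field_simp
  ring

theorem CM.b1 (P : CM R M) (hI : HasI R) (hT : Ty σ R M) (I : Iv R w) (hw : w ∈ R)
    (hB : Big (rs w M)) (hn : 4 ≤ finrank F (Vp w) ∨ (3 : F) ≠ 0) : Big M := by
  obtain ⟨j, hj, j1, j2⟩ := hI
  exact big_of_kr P.two I.sq ((P.rs_cm I).big_normal (P.hasI_rs I hj j2 (sp_of_Sc j1))
    (hT.rs P.two hw I.sq) kr_le (fun _ h _ => kr_conj h) (fun _ => P.nn_le_kr I hw) hB hn)

end Cfsg.Agent.C6
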