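import Cfsg.Agent.C6.Tools
import Cfsg.Agent.H28.MobClass
import Cfsg.Agent.H28.Pgl2Trace

/-! Normalisers of symplectic type `2`-groups: Dickson's theorem and the two-dimensional case. -/

set_option autoImplicit false
set_option linter.unusedSectionVars false
set_option linter.unusedVariables false
set_option linter.unusedSimpArgs false

namespace Cfsg.Agent.C6

open Module Cfsg.Agent.H27 Cfsg.Agent.H28
open scoped MatrixGroups

universe u v

theorem s4_aux1 : ∀ s t : Equiv.Perm (Fin 4), s ^ 4 = 1 → t ^ 4 = 1 →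
    s ^ 2 * t ^ 2 = t ^ 2 * s ^ 2 := by
  decide +kernel

theorem s4_aux2 : ∀ s t : Equiv.Perm (Fin 4), s ^ 4 = 1 → s ^ 2 = t ^ 2 → s ^ 2 = 1 ∨
    s * t = t * s := by
  decide +kernel

theorem s4_aux3 : ∀ l : Equiv.Perm (Fin 4), l ^ 4 = 1 → l ^ 2 = 1 ∨
    l ^ 2 = Equiv.swap 0 1 * Equiv.swap 2 3 ∨ l ^ 2 = Equiv.swap 0 2 * Equiv.swap 1 3 ∨
    l ^ 2 = Equiv.swap 0 3 * Equiv.swap 1 2 := by
  decide +kernel

theorem s4_aux (s t : Equiv.Perm (Fin 4)) (s4 : s ^ 4 = 1) (s2 : s ^ 2 ≠ 1) (t4 : t ^ 4 = 1)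
    (t2 : t ^ 2 ≠ 1) (st : s * t ≠ t * s) : s ^ 2 * t ^ 2 = t ^ 2 * s ^ 2 ∧
      ∀ l : Equiv.Perm (Fin 4), l ^ 4 = 1 → l ^ 2 = 1 ∨ l ^ 2 = s ^ 2 ∨ l ^ 2 = t ^ 2 ∨
        l ^ 2 = s ^ 2 * t ^ 2 := by
  refine ⟨s4_aux1 s t s4 t4, fun l hl => ?_⟩
  have h1 : s ^ 2 ≠ t ^ 2 := fun e => (s4_aux2 s t s4 e).elim s2 st
  have h2 := s4_aux3 s s4
  have h3 := s4_aux3 t t4
  have h4 := s4_aux3 l hl
  generalize s ^ 2 = a at *
  generalize t ^ 2 = b at *
  generalize l ^ 2 = c at *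
  rcases h2 with rfl | rfl | rfl | rfl <;> rcases h3 with rfl | rfl | rfl | rfl <;>
    first | exact absurd rfl s2 | exact absurd rfl t2 | exact absurd rfl h1 |
      (rcases h4 with rfl | rfl | rfl | rfl <;> decide)

theorem a4_aux : ∀ s : alternatingGroup (Fin 4), s ^ 4 = 1 → s ^ 2 = 1 := by
  decide +kernel

theorem pgl_dk {K : Type*} [Field K] [IsAlgClosed K] (p : ℕ) [Fact p.Prime] [CharP K p]
    (Γ : Subgroup PGL(2, K)) [Finite Γ] (ht : ∀ g : Γ, g ^ p = 1 → g = 1) {s t : Γ}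
    (s4 : s ^ 4 = 1) (s2 : s ^ 2 ≠ 1) (t4 : t ^ 4 = 1) (t2 : t ^ 2 ≠ 1) (st : s * t ≠ t * s) :
    s ^ 2 * t ^ 2 = t ^ 2 * s ^ 2 ∧ ∀ l : Γ, l ^ 4 = 1 →
      l ^ 2 = 1 ∨ l ^ 2 = s ^ 2 ∨ l ^ 2 = t ^ 2 ∨ l ^ 2 = s ^ 2 * t ^ 2 := by
  classical
  have M : Mob p K Γ (OnePoint K) :=
    (mob_pgl p).of_hom Γ.subtype Γ.subtype_injective fun _ _ => rfl
  have key : ∀ x : OnePoint K, s • x = x → t • x = x → False := fun x h1 h2 => by
    have := M.isCyclic_of_tame (x := x) le_rfl fun g _ => ht g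
    exact st (congrArg Subtype.val
      (mul_comm' (⟨s, h1⟩ : MulAction.stabilizer Γ x) (⟨t, h2⟩ : MulAction.stabilizer Γ x)))
  rcases M.classify_tame fun x => eq_bot_iff.2 fun g hg => ht g hg.2 with
    ⟨x, hx⟩ | ⟨x, hx⟩ | ⟨⟨e⟩⟩ | ⟨⟨e⟩⟩ | ⟨⟨e⟩⟩
  · exact (key x (hx s) (hx t)).elim
  · obtain ⟨y, h1, h2, -⟩ := Mob.pair_of_index_two hx
    exact (key x ((h2 s).resolve_right fun h => s2 (by
      rw [pow_two]; exact M.mul_self_of_swap h1 h.1 h.2)).1 ((h2 t).resolve_right fun h => t2 (by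
      rw [pow_two]; exact M.mul_self_of_swap h1 h.1 h.2)).1).elim
  · exact absurd (e.injective (by simpa using a4_aux (e s) (by rw [← map_pow, s4, map_one]))) s2
  · have := s4_aux (e s) (e t) (by rw [← map_pow, s4, map_one]) (by simpa [← map_pow] using s2)
      (by rw [← map_pow, t4, map_one]) (by simpa [← map_pow] using t2)
      (by simpa [← map_mul] using st)
    refine ⟨e.injective (by simpa using this.1), fun l hl => ?_⟩
    simpa [← map_pow, ← map_mul] using this.2 (e l) (by rw [← map_pow, hl, map_one])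
  · have h4 : e s ^ 4 = 1 := by rw [← map_pow, s4, map_one]
    refine absurd (e.injective ?_) s2
    rw [map_pow, map_one]
    rcases alt5_pow (e s) with h | h | h
    · exact h
    · rw [pow_succ _ 3, h, one_mul] at h4
      rw [h4, one_pow]
    · rw [pow_succ _ 4, h4, one_mul] at h
      rw [h, one_pow]

variable {F : Type u} {V : Type v} [Field F] [AddCommGroup V] [Module F V]
variable [Finite F] [FiniteDimensional F V]
variable {R L M : Subgroup (GV F V)} {a b c d g h k r s t u w x y z : GV F V}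

theorem exists_psi (hn : finrank F V = 2) :
    ∃ ψ : GV F V →* PGL(2, AlgebraicClosure F), ∀ g, ψ g = 1 ↔ g ∈ Sc F V := by
  let e := LinearMap.toMatrixAlgEquiv (Module.finBasisOfFinrankEq F V hn)
  have : Nontrivial V := Module.nontrivial_of_finrank_pos (R := F) (by omega)
  refine ⟨Matrix.ProjGenLinGroup.mk.comp ((Matrix.GeneralLinearGroup.map
    (algebraMap F (AlgebraicClosure F))).comp (Units.map (e : End F V →* _))), fun g => ?_⟩
  rw [MonoidHom.comp_apply, pgl_mk_eq_one_iff]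
  change algebraMap F _ (e g.1 0 1) = 0 ∧ algebraMap F _ (e g.1 1 0) = 0 ∧
    algebraMap F _ (e g.1 0 0) = algebraMap F _ (e g.1 1 1) ↔ _
  simp only [map_eq_zero, (algebraMap F (AlgebraicClosure F)).injective.eq_iff]
  constructor
  · rintro ⟨h1, h2, h3⟩
    refine mem_Sc_of (c := e g.1 0 0) (e.injective ?_)
    rw [map_smul, map_one]
    ext i j
    fin_cases i <;> fin_cases j <;> simp [h1, h2, h3]
  · rintro ⟨c, -, h⟩
    simp [h]

theorem tv_of_unip (hn : finrank F V = 2) (p : ℕ) [Fact p.Prime] [CharP F p] (h1 : g ^ p = 1)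
    (h2 : g ≠ 1) : ∃ (v : V) (φ : Dual F V), v ≠ 0 ∧ φ ≠ 0 ∧ φ v = 0 ∧ ∀ x, g.1 x = x + φ x • v := by
  obtain ⟨N, hN⟩ : ∃ N : End F V, N = g.1 - 1 := ⟨_, rfl⟩
  have Np : N ^ p = 0 := by
    have := congrArg (Polynomial.aeval g.1)
      (sub_pow_char (Polynomial.X : Polynomial F) 1 (p := p))
    rw [one_pow, map_pow, map_sub, map_sub, map_pow, Polynomial.aeval_X, map_one, ← hN] at this
    rw [this, ← Units.val_pow_eq_pow_val, h1, Units.val_one, sub_self]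
  have N2 : N ^ 2 = 0 := by
    have := N.aeval_self_charpoly
    rwa [IsNilpotent.charpoly_eq_X_pow_finrank ⟨p, Np⟩, hn, map_pow, Polynomial.aeval_X] at this
  have N0 : N ≠ 0 := fun e => h2 (Units.ext (by rwa [hN, sub_eq_zero] at e))
  have h3 : finrank F (LinearMap.range N) = 1 := by
    have e1 := LinearMap.finrank_range_add_finrank_ker N
    have e2 := Submodule.finrank_mono (show LinearMap.range N ≤ LinearMap.ker N from
      LinearMap.range_le_ker_iff.2 (by rwa [pow_two] at N2))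
    have e3 : finrank F (LinearMap.range N) ≠ 0 := fun e =>
      N0 (LinearMap.range_eq_bot.1 (Submodule.finrank_eq_zero.1 e))
    omega
  obtain ⟨⟨v, hv⟩, h4, h5⟩ := finrank_eq_one_iff'.1 h3
  have hv0 : v ≠ 0 := fun e => h4 (Subtype.ext e)
  obtain ⟨l, hl⟩ := Module.Projective.exists_dual_eq_one F hv0
  have h6 : ∀ x, N x = l (N x) • v := fun x => by
    obtain ⟨c, hc⟩ := h5 ⟨N x, x, rfl⟩
    have hc : c • v = N x := congrArg Subtype.val hc
    rw [← hc, map_smul, hl, smul_eq_mul, mul_one]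
  refine ⟨v, l ∘ₗ N, hv0, fun e => N0 (LinearMap.ext fun x => ?_), ?_, fun x => ?_⟩
  · rw [h6, show l (N x) = 0 from DFunLike.congr_fun e x, zero_smul]; rfl
  · obtain ⟨y, rfl⟩ := hv
    rw [LinearMap.comp_apply, ← End.mul_apply, ← pow_two, N2]; simp
  · rw [LinearMap.comp_apply, ← h6, hN]; simp

theorem dk (hn : finrank F V = 2) (hs : s ∈ L) (ht : t ∈ L) (s4 : s ^ 4 ∈ Sc F V)
    (s2 : s ^ 2 ∉ Sc F V) (t4 : t ^ 4 ∈ Sc F V) (t2 : t ^ 2 ∉ Sc F V)
    (st : s * t * (t * s)⁻¹ ∉ Sc F V) :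
    Big L ∨ (s ^ 2 * t ^ 2 * (t ^ 2 * s ^ 2)⁻¹ ∈ Sc F V ∧ ∀ l ∈ L, l ^ 4 ∈ Sc F V →
      l ^ 2 ∈ Sc F V ∨ l ^ 2 * (s ^ 2)⁻¹ ∈ Sc F V ∨ l ^ 2 * (t ^ 2)⁻¹ ∈ Sc F V ∨
        l ^ 2 * (s ^ 2 * t ^ 2)⁻¹ ∈ Sc F V) := by
  obtain ⟨ψ, hψ⟩ := exists_psi hn
  have := finite_GV (F := F) (V := V)
  obtain ⟨p, hp⟩ := CharP.exists F
  have : Fact p.Prime := ⟨CharP.char_is_prime F p⟩
  have : Finite (L.map ψ) := Finite.of_surjective _ (ψ.subgroupMap_surjective L)
  have k : ∀ a b, ψ a = ψ b ↔ a * b⁻¹ ∈ Sc F V := fun a b => by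
    rw [← hψ, map_mul, map_inv, mul_inv_eq_one]
  refine or_iff_not_imp_left.2 fun hB => ?_
  have := pgl_dk p (L.map ψ) ?_ (s := ⟨_, s, hs, rfl⟩) (t := ⟨_, t, ht, rfl⟩)
    (Subtype.ext (by simpa [← map_pow, hψ] using s4)) (fun e => s2 (by
      simpa [← map_pow, hψ] using congrArg Subtype.val e))
    (Subtype.ext (by simpa [← map_pow, hψ] using t4)) (fun e => t2 (by
      simpa [← map_pow, hψ] using congrArg Subtype.val e))
    (fun e => st ((k _ _).1 (by simpa using congrArg Subtype.val e)))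
  · refine ⟨(k _ _).1 (by simpa using congrArg Subtype.val this.1), fun l hl h => ?_⟩
    have := this.2 ⟨_, l, hl, rfl⟩ (Subtype.ext (by simpa [← map_pow, hψ] using h))
    simp only [Subtype.ext_iff, Subgroup.coe_pow, Subgroup.coe_mul, Subgroup.coe_one, ← map_pow,
      ← map_mul, k, hψ] at this
    exact this
  rintro ⟨_, g, hg, rfl⟩ e
  by_contra h1
  have e1 : g ^ p ∈ Sc F V := by simpa [← map_pow, hψ] using congrArg Subtype.val e
  obtain ⟨v, φ, a1, a2, a3, a4⟩ := tv_of_unip hn p (g := g ^ ex F)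
    (by rw [← pow_mul, mul_comm, pow_mul, Sc_pow_ex e1]) fun e2 => h1 (Subtype.ext (by
      have e3 : p ∣ ex F - 1 := (CharP.cast_eq_zero_iff F p _).1 (by
        rw [Nat.cast_sub (Nat.one_le_iff_ne_zero.2 fun e => by
          have := ex_cast (F := F); rw [e] at this; simp at this), ex_cast]; simp)
      obtain ⟨m, hm⟩ := e3
      have e4 : ex F = p * m + 1 := by
        have : ex F ≠ 0 := fun e => by have := ex_cast (F := F); rw [e] at this; simp at this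
        omega
      rw [e4, pow_succ, pow_mul] at e2
      change ψ g = 1
      rw [hψ, eq_inv_of_mul_eq_one_right e2]
      exact (Sc F V).inv_mem ((Sc F V).pow_mem e1 m)))
  exact hB ⟨v, φ, a1, a2, a3, t1_ME.2 ⟨_, L.pow_mem hg _, a4⟩⟩

end Cfsg.Agent.C6
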