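import Cfsg.Agent.C6.TvL
import Cfsg.Agent.H84.CU3a

/-! Normalisers of symplectic type `2`-groups: overgroups containing a transvection, unitary
case. -/

set_option autoImplicit false
set_option linter.unusedSectionVars false
set_option linter.unusedVariables false
set_option linter.unusedSimpArgs false

namespace Cfsg.Agent.C6

open Module Cfsg.Agent.H27 Relation Cfsg.Agent.H84.CU

universe u v

variable {F : Type u} {V : Type v} [Field F] [AddCommGroup V] [Module F V]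
variable {σ : F →+* F} {B : V →ₛₗ[σ] V →ₗ[F] F} {H : Subgroup (V ≃ₗ[F] V)}

/-- The directions of the Eichler elements with centre `v`. -/
def YS (S : SkH B) (H : Subgroup (V ≃ₗ[F] V)) {v : V} (hv : B v v = 0) : AddSubgroup V where
  carrier := {y | B v y = 0 ∧ ∃ t, ES B H v y t}
  add_mem' := by
    rintro a b ⟨h1, t, h2⟩ ⟨h3, t', h4⟩
    exact ⟨by rw [map_add, h1, h3, add_zero], _, S.es_comp hv h1 h3 h2 h4⟩
  zero_mem' := ⟨map_zero _, _, by simpa using es_self S (z := v) 0⟩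
  neg_mem' := by
    rintro a ⟨h1, t, h2⟩
    exact ⟨by rw [map_neg, h1, neg_zero], _, S.es_neg hv h1 h2⟩

theorem pf_smul {Y : AddSubgroup V} {y : V} (hy : y ∈ Y) {c : F} (hc : PF c) : c • y ∈ Y := by
  obtain ⟨n, rfl⟩ := hc
  rw [Nat.cast_smul_eq_nsmul]
  exact Y.nsmul_mem hy n

section

variable (S : SkH B) {v a b x y : V}
include S

theorem ys_self (hv : B v v = 0) (c : F) : c • v ∈ YS S H hv :=
  ⟨by simp [hv], _, es_self S c⟩

theorem ys_conj (hv : B v v = 0) (h : y ∈ YS S H hv) {g : V ≃ₗ[F] V} (hg : g ∈ H)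
    (hi : g ∈ Iso B) (hx : B x x = 0) (e : g v = x) : g y ∈ YS S H hx := by
  subst e
  exact ⟨(hi v y).trans h.1, h.2.imp fun t h => h.conj hg hi⟩

theorem weyl (hv : AS B H v) (ha : AS B H a) (e : B v a = 1) :
    Has H fun x => x + (B v x + B a x) • v + (B a x - B v x) • a :=
  ((hv.2 1 (map_one σ)).comp ((ha.2 1 (map_one σ)).comp (hv.2 1 (map_one σ)))).congr fun x => by
    simp only [one_smul, map_add, map_smul, hv.1, e, S.one_symm e, smul_eq_mul]
    module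

theorem ys_diff [Finite F] (h2 : (2 : F) ≠ 0) (hv : AS B H v) (ha : AS B H a) (hb : AS B H b)
    (e : B v a = 1) (e' : B v b = 1) : b - a ∈ YS S H hv.1 := by
  have k : ∀ {a}, AS B H a → B v a = 1 → Has H fun x => x - (2 * B v x) • a + (2 * B a x) • v :=
    fun {a} ha e => ((weyl S hv ha e).comp (weyl S hv ha e)).congr fun x => by
      simp only [map_add, map_smul, hv.1, ha.1, e, S.one_symm e, smul_eq_mul]
      module
  have h1 : (2 : F) • (b - a) ∈ YS S H hv.1 := ⟨by simp [e, e'], -4 * B b a,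
    ((k hb e').comp (k ha e)).congr fun x => by
      simp only [map_add, map_sub, map_smul, hv.1, e, S.one_symm e', smul_eq_mul,
        LinearMap.map_smulₛₗ, LinearMap.smul_apply, LinearMap.sub_apply, map_ofNat]
      module⟩
  have := pf_smul h1 (PF.inv (a := (2 : F)) ⟨2, by simp⟩)
  rwa [smul_smul, inv_mul_cancel₀ h2, one_smul] at this

variable [Finite F] (h2 : (2 : F) ≠ 0) (pf : ∀ a, σ a = a → PF a) (hH : H ≤ Iso B)
  (hv : AS B H v) (ha : AS B H a) (e : B v a = 1)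
include h2 pf hH hv ha e

theorem ys_scale (hy : y ∈ YS S H hv.1) (h0 : B y y ≠ 0) (c : F) : c • y ∈ YS S H hv.1 := by
  have h1 := (YS S H hv.1).add_mem hy (ys_self S hv.1 (B a y))
  have h3 : B a (y + B a y • v) = 0 := by simp [S.one_symm e]
  have h4 : B (y + B a y • v) (y + B a y • v) ≠ 0 := by
    simpa [hv.1, hy.1, S.zero_symm hy.1] using h0
  suffices c • (y + B a y • v) ∈ YS S H hv.1 by
    simpa [smul_smul] using (YS S H hv.1).sub_mem this (ys_self S hv.1 (c * B a y))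
  generalize y + B a y • v = y at h1 h3 h4
  obtain ⟨h5, t, h6⟩ := id h1
  have h7 := es_valid S hH hv.1 h5 (by rintro rfl; simp at e) h6
  have h8 : t ≠ 0 := by rintro rfl; simp [← h7] at h4
  obtain ⟨g, hg, e1⟩ := h6.exists
  obtain ⟨n, hn, e2⟩ := weyl S hv ha e
  have h9 := (YS S H hv.1).neg_mem ((YS S H hv.1).add_mem (ys_diff S h2 hv ha
    (S.as_smul ((ha.conj hg (hH hg)).conj hn (hH hn)) (-t⁻¹)) e (by
      simp [e1, e2, e, hv.1, h5, S.zero_symm h3, ha.1, h3, S.one_symm e, h8]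
      field_simp; ring))
    (ys_self S hv.1 t⁻¹))
  replace h9 : t⁻¹ • y ∈ YS S H hv.1 := by
    convert h9 using 1
    simp only [e1, e2, e, hv.1, h5, S.zero_symm h3, ha.1, h3, S.one_symm e, map_add, map_smul,
      smul_eq_mul]
    match_scalars <;> field_simp <;> ring
  have h10 : t⁻¹ - σ t⁻¹ ≠ 0 := fun e => h4 (by
    rw [← h7, sub_eq_zero, ← inv_inj, ← map_inv₀]; exact sub_eq_zero.1 e)
  have h11 : σ t⁻¹ - t⁻¹ ≠ 0 := by rwa [← neg_sub, neg_ne_zero]
  generalize t⁻¹ = τ at *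
  have h12 : σ ((c - σ c) / (τ - σ τ)) = (c - σ c) / (τ - σ τ) := by
    rw [map_div₀, map_sub, map_sub, S.inv, S.inv]; field_simp; ring
  have := (YS S H hv.1).add_mem (pf_smul h9 (pf _ h12))
    (pf_smul h1 (pf (c - (c - σ c) / (τ - σ τ) * τ) (by
      rw [map_sub, map_mul, h12]; field_simp; ring)))
  rwa [smul_smul, ← add_smul, add_sub_cancel] at this

theorem ys_smul {y0 : V} (h0 : y0 ∈ YS S H hv.1) (h1 : B y0 y0 ≠ 0) (hy : y ∈ YS S H hv.1)
    (c : F) : c • y ∈ YS S H hv.1 := by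
  have k := fun {y} => ys_scale S h2 pf hH hv ha e (y := y)
  by_cases h3 : B y y = 0
  swap
  · exact k hy h3 c
  by_cases h4 : B (y + y0) (y + y0) = 0
  · have h5 : B (y - y0) (y - y0) ≠ 0 := fun h5 => by
      simp only [map_add, map_sub, LinearMap.add_apply, LinearMap.sub_apply, h3] at h4 h5
      exact mul_ne_zero h2 h1 (by linear_combination h4 + h5)
    simpa [smul_sub] using AddSubgroup.add_mem _ (k (AddSubgroup.sub_mem _ hy h0) h5 c) (k h0 h1 c)
  · simpa using AddSubgroup.sub_mem _ (k (AddSubgroup.add_mem _ hy h0) h4 c) (k h0 h1 c)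

end

variable [Finite F] [FiniteDimensional F V]
variable {R M : Subgroup (GV F V)} {a b c d g h k r s u w x y z : GV F V}

theorem as_inf (S : SkH B) {v : V} : AS B (H ⊓ Iso B) v ↔ AS B H v :=
  ⟨fun h => ⟨h.1, fun c hc => (h.2 c hc).mono inf_le_left⟩, fun h => ⟨h.1, fun c hc =>
    let ⟨g, hg, e⟩ := h.2 c hc; ⟨g, ⟨hg, S.iso_of_t1 h.1 hc e⟩, e⟩⟩⟩

theorem SI.mult (hM : SI B M) (hg : g ∈ M) :
    ∃ m : F, m ≠ 0 ∧ ∀ y z, B y ((g⁻¹).1 z) = m * B (g.1 y) z := by
  obtain ⟨s, hs, h⟩ := hM g hg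
  obtain ⟨c, hc, e⟩ := Sc_ap hs
  refine ⟨σ c * c, mul_ne_zero ((map_ne_zero σ).2 hc) hc, fun y z => ?_⟩
  rw [← h, mul_ap, mul_ap, e, e, val_apply_inv]
  simp only [LinearMap.map_smulₛₗ, LinearMap.smul_apply, smul_eq_mul, RingHom.id_apply]
  ring

theorem nd_ne (nd : ∀ x, (∀ y, B x y = 0) → x = 0) {v : V} (hv : v ≠ 0) : B v ≠ 0 :=
  fun e => hv (nd v fun y => by rw [e]; rfl)

theorem CM.tvu (P : CM R M) (hI : HasI R) (hn : 4 < finrank F V ^ 2) (U : UT B R M)
    (hB : Big M) : GG B ≤ ME M := by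
  have S := U.uh.toSkH
  obtain ⟨v, φ, b1, b2, b3, b4⟩ := hB
  obtain ⟨H, hH⟩ : ∃ H, H = ME M ⊓ Iso B := ⟨_, rfl⟩
  have h1 : H ≤ Iso B := hH ▸ inf_le_right
  have cj : ∀ g ∈ M, ∀ x, AS B H x → AS B H (g.1 x) := fun g hg x h => by
    rw [hH, as_inf S] at h ⊢
    exact as_conj S P.sc U.si h hg
  have hv : AS B H v := by rw [hH, as_inf S]; exact U.as_of_t1 b1 b2 b3 b4
  refine le_trans ?_ (hH ▸ inf_le_left : H ≤ ME M)
  have ex : ∀ x y : V, x ≠ 0 → y ≠ 0 → ∃ r ∈ R, B y (r.1 x) ≠ 0 := fun x y hx hy =>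
    P.exists_ne hx (nd_ne U.nd hy)
  let E : V → V → Prop := fun x y => AS B H x ∧ AS B H y ∧ B x y ≠ 0
  have Es : ∀ {x y}, E x y → E y x := fun h => ⟨h.2.1, h.1, S.ne_symm h.2.2⟩
  have hc : ∀ x, AS B H x ∧ x ≠ 0 → ReflTransGen E v x := fun x hx => by
    refine P.conn hI hn (fun g x => g.1 x) (fun x => AS B H x ∧ x ≠ 0) (ReflTransGen E)
      (fun _ _ _ => rfl) (fun _ => rfl) (fun g hg x h => ⟨cj g hg x h.1, ap_ne g h.2⟩)
      (H90.rtg_symm Es) ReflTransGen.trans (fun g hg p q h => ?_) (fun s hs p hp => ?_)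
      (fun p q hp hq => ?_) (fun p hp => ?_) ⟨hv, b1⟩ hx
    · obtain ⟨m, -, e⟩ := U.si.mult hg
      induction h with
      | refl => exact .refl
      | @tail x y _ o ih =>
        exact ih.tail ⟨cj g hg _ o.1, cj g hg _ o.2.1, fun e1 => o.2.2 (by
          rw [← val_inv_apply g y, e, e1, mul_zero])⟩
    · obtain ⟨c, hc, e⟩ := Sc_ap hs
      obtain ⟨r, hr, e1⟩ := ex p p hp.2 hp.2
      have h2 := cj r (P.le hr) p hp.1
      exact .tail (.single ⟨hp.1, h2, e1⟩) ⟨h2, cj s (P.sc hs) p hp.1, by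
        simpa [e, hc] using S.ne_symm e1⟩
    · obtain ⟨r, hr, e⟩ := ex p q hp.2 hq.2
      exact ⟨r, hr, .single (Es ⟨hq.1, cj r (P.le hr) p hp.1, e⟩)⟩
    · obtain ⟨r, hr, -, e1, e⟩ := P.exists_iv hI hp.2 (nd_ne U.nd hp.2) hp.1.1 (Or.inl rfl)
      exact ⟨r, hr, e1, .single ⟨hp.1, cj r (P.le hr) p hp.1, e⟩⟩
  have nrm : ∀ x, AS B H x → B v x ≠ 0 → AS B H ((B v x)⁻¹ • x) ∧ B v ((B v x)⁻¹ • x) = 1 :=
    fun x hx e => ⟨S.as_smul hx _, by simp [e]⟩
  obtain ⟨a, ha, e, b, hb, e', h0⟩ : ∃ a, AS B H a ∧ B v a = 1 ∧ ∃ b, AS B H b ∧ B v b = 1 ∧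
      B (b - a) (b - a) ≠ 0 := by
    obtain ⟨k, hk, k', hk', e⟩ := P.tri hI hn b1 (nd_ne U.nd b1) hv.1
    obtain ⟨m, -, e1⟩ := U.si.mult hk
    obtain ⟨m', -, e2⟩ := U.si.mult hk'
    have h2 := cj k hk v hv
    have h3 := cj k' hk' v hv
    rw [e1, e1, e2, e2] at e
    generalize k.1 v = x at *
    generalize k'.1 v = y at *
    rw [S.skew v x, S.skew v y, S.skew x y] at e
    have h4 : B v x ≠ 0 := fun h => e (by simp [h])
    have h5 : B v y ≠ 0 := fun h => e (by simp [h])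
    have h6 := (map_ne_zero σ).2 h4
    have h7 := (map_ne_zero σ).2 h5
    refine ⟨_, (nrm x h2 h4).1, (nrm x h2 h4).2, _, (nrm y h3 h5).1, (nrm y h3 h5).2,
      fun h => e ?_⟩
    simp only [map_sub, LinearMap.sub_apply, LinearMap.map_smulₛₗ, LinearMap.smul_apply,
      smul_eq_mul, h2.1, h3.1, S.skew x y, map_inv₀, RingHom.id_apply] at h
    field_simp at h
    linear_combination m * m' * h
  have sm := fun {y} => ys_smul S P.two U.uf.pf h1 hv ha e (ys_diff S P.two hv ha hb e e') h0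
    (y := y)
  let X : Submodule F V :=
    { carrier := {x | x - B v x • a ∈ YS S H hv.1}
      add_mem' := fun {x y} hx hy => by
        have := (YS S H hv.1).add_mem hx hy
        change _ ∈ YS S H hv.1
        convert this using 1
        rw [map_add]; module
      zero_mem' := by simp
      smul_mem' := fun c x hx => by
        have := sm hx c
        change _ ∈ YS S H hv.1
        convert this using 1
        rw [map_smul, smul_eq_mul]; module }
  have x1 : ∀ x, AS B H x → B v x ≠ 0 → x ∈ X := fun x hx e1 => by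
    have := sm (ys_diff S P.two hv ha (nrm x hx e1).1 e (nrm x hx e1).2) (B v x)
    rwa [smul_sub, smul_smul, mul_inv_cancel₀ e1, one_smul] at this
  have x2 : ∀ x, ReflTransGen E v x → AS B H x ∧
      (B v x ≠ 0 ∨ ∃ a', AS B H a' ∧ B v a' ≠ 0 ∧ B a' x ≠ 0) := fun x hx => by
    induction hx with
    | refl => exact ⟨hv, Or.inr ⟨a, ha, by simp [e], by simp [S.one_symm e]⟩⟩
    | @tail x y _ o ih =>
      refine ⟨o.2.1, Or.inr ?_⟩
      by_cases e1 : B v x = 0
      swap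
      · exact ⟨x, o.1, e1, o.2.2⟩
      obtain ⟨a', c1, c2, c3⟩ := ih.2.resolve_left (not_not.2 e1)
      by_cases e2 : B a' y = 0
      · exact ⟨_, S.as_move o.1 c1 (map_one σ), by simpa [e1], by
          simpa [e2, o.2.2] using S.ne_symm c3⟩
      · exact ⟨a', c1, c2, e2⟩
  have x3 : X = ⊤ := P.eq_top b1 fun r hr => by
    obtain ⟨c1, c2⟩ := x2 _ (hc _ ⟨cj r (P.le hr) v hv, ap_ne r b1⟩)
    by_cases e1 : B v (r.1 v) = 0
    swap
    · exact x1 _ c1 e1
    obtain ⟨a', c3, c4, c5⟩ := c2.resolve_left (not_not.2 e1)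
    have := X.sub_mem (x1 _ (S.as_move c1 c3 (map_one σ)) (by simpa [e1])) (x1 _ c3 c4)
    rwa [add_sub_cancel_left, one_mul, X.smul_mem_iff (S.ne_symm c5)] at this
  have q1 := qs_of_es S h1 hv b1 fun y hy => by
    have : y ∈ X := x3 ▸ trivial
    change _ ∈ YS S H hv.1 at this
    rw [hy, zero_smul, sub_zero] at this
    exact this.2
  obtain ⟨r, hr, e1⟩ := ex v v b1 b1
  exact le_of_qs S h1 q1 (q1.conj (g := toE F V r)
    (hH ▸ ⟨mem_ME.2 (P.le hr), U.iso r hr⟩) (U.iso r hr)) e1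

end Cfsg.Agent.C6
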